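import Cfsg.Agent.H455.TW.NegRefl
import Cfsg.Agent.H370.TW.Cube
import Cfsg.Agent.H140.TW.R1
import Cfsg.Agent.H140.TW.GoodFrame
import Cfsg.Agent.H144.TW.Refl
import Cfsg.Agent.H311.TW.Good

/-!
# S2452, `Ω_(2n+1)(q)`, `q` odd, `n` even: assembly (helper455)

* `twoOf_of_good` : `TwoOf` from the good case (helper370's glue).
* `t52_odd_even_of` : the row from the good case.
-/

set_option autoImplicit false

namespace Cfsg.Agent.H455.TW

open Module QuadraticMap Matrix Polynomial Cfsg.Agent.LieClassical Cfsg.Agent.LieClassical.OrthCore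
  Cfsg.Agent.LieClassical.OrthTrans Cfsg.Agent.LieClassical.OrthFinite Cfsg.Agent.LieClassical.OrthForms
  Cfsg.Agent.H140.OreO Cfsg.Agent.H962.PP Cfsg.Agent.H141.SpinFacts Cfsg.Agent.H781.TC6
open Cfsg.Agent.H434.Corn (MaxTS exists_maxTS)
open Cfsg.Agent.H140.TC
open Cfsg.Agent.H588.TW (T52)

/-- the good case: the output of `goodFrame` suffices -/
def GoodPr {F V : Type*} [Field F] [AddCommGroup V] [Module F V] (Q : QuadraticForm F V) {m : ℕ}
    (x₀ y₀ : V ≃ₗ[F] V) : Prop :=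
  ∀ g ∈ Om Q, ∀ w w' : Fin m → V, Frame Q w w' → SchurOne Q g w w' → (corner Q g w w').det = 1 →
    ∀ c : Fin m → F, (∀ d : F, corner Q g w w' *ᵥ c ≠ d • c) →
      (∀ v, (∀ i, polar Q (w i) v = 0 ∧ polar Q (w' i) v = 0) → polar Q (g (∑ i, c i • w i)) v = 0) →
      ∃ u ∈ Om Q, ∃ v ∈ Om Q, g = (u * x₀ * u⁻¹) * (v * y₀ * v⁻¹)

theorem twoOf_of_good {F V : Type*} [Field F] [AddCommGroup V] [Module F V] {Q : QuadraticForm F V}
    [Finite F] [FiniteDimensional F V] (h2 : (2 : F) ≠ 0) (hQ : Nondeg Q) {m : ℕ}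
    (hV : finrank F V = 2 * m + 1) (hm : 4 ≤ m) (hme : Even m) {e e' : Fin m → V} (hf : Frame Q e e')
    {X₀ Y₀ T T' : GL (Fin m) F} (hXY : X₀ * Y₀ = -1)
    (hTX : T * X₀ = X₀ * T) (hT : ¬ IsSquare (T : Matrix (Fin m) (Fin m) F).det)
    (hTY : T' * Y₀ = Y₀ * T') (hT' : ¬ IsSquare (T' : Matrix (Fin m) (Fin m) F).det)
    (H : GoodPr Q (m := m) ((autE hf.toModel).symm (lev X₀ 1)) ((autE hf.toModel).symm (lev Y₀ 1))) :
    TwoOf Q ((autE hf.toModel).symm (lev X₀ 1)) ((autE hf.toModel).symm (lev Y₀ 1)) := by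
  intro g hg hns
  have hgO : g ∈ O Q := Om_le hg
  have hW : ∀ W, MaxTS Q W → finrank F W = m := by
    intro W hW
    have h1 := hW.bounds hQ
    omega
  by_cases hR : Cfsg.Agent.H781.TW.R1 Q g
  · obtain ⟨W, -, hW'⟩ := exists_maxTS (Q := Q) (T := (⊥ : Submodule F V)) (fun x hx => by
      rw [(Submodule.mem_bot F).1 hx, QuadraticMap.map_zero])
    have hsq := Cfsg.Agent.H140.TW.R1_sq h2 hQ ⟨W, hW', by rw [hW W hW']; omega⟩ hgO hR
    rcases Cfsg.Agent.H144.TW.R1_refl h2 hQ (by omega) hgO hR hsq with ⟨c, hc⟩ | ⟨z, hz, h | h⟩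
    · obtain ⟨v, hv⟩ := hns c
      exact absurd (hc v) hv
    · exfalso
      have h3 : g = refl Q z hz := by
        apply LinearEquiv.ext
        intro v
        rw [h, refl_apply, div_eq_inv_mul]
      have h4 := Cfsg.Agent.H141.SpinFacts.det_eq_one hg
      rw [h3, Cfsg.Agent.H160.QSpin.det_refl hz] at h4
      have h5 := congrArg Units.val h4
      rw [Units.val_neg, Units.val_one] at h5
      apply h2
      linear_combination -h5
    · exact neg_refl h2 hQ hV (by omega) hme hf hXY hTX hT hTY hT' hg hz h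
  · obtain ⟨W, hW', h1, h3⟩ := Cfsg.Agent.H311.TW.exists_good hQ hgO hns
      (fun W hW' => by rw [hW W hW']; exact hm) hR
    obtain ⟨w, w', hfw, hS, hdet, c, hc, hc'⟩ :=
      Cfsg.Agent.H140.TW.goodFrame hQ hg hV hW' (hW W hW') h1 h3 (one_ne_zero (α := F))
    exact H g hg w w' hfw hS (by rw [hdet, mul_one]) c hc hc'

/-- **The row from the good case.** -/
theorem t52_odd_even_of {F : Type*} [Field F] [Fintype F] (hodd : Odd (Fintype.card F)) {k : ℕ} (hk : 2 ≤ k)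
    (hke : Even k)
    (H : ∀ (r : ℕ) (f : F[X]) (B : GL (Fin (k + 1)) F) (X₀ Y₀ : GL (Fin (k + 2)) F) (e e' : Fin (k + 2) → _)
      (hf : Frame (oddForm (k + 2) F) e e'), r.Prime → r.Coprime 6 → GF (k + 1) r f →
      (B : Matrix (Fin (k + 1)) (Fin (k + 1)) F).charpoly = f →
      (B : Matrix (Fin (k + 1)) (Fin (k + 1)) F).det = 1 → B ^ r = 1 →
      (X₀ : Matrix (Fin (k + 2)) (Fin (k + 2)) F) = blk 1 B →
      (Y₀ : Matrix (Fin (k + 2)) (Fin (k + 2)) F) =
        blk (-1) (-((B⁻¹ : GL (Fin (k + 1)) F) : Matrix (Fin (k + 1)) (Fin (k + 1)) F)) →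
      GoodPr (oddForm (k + 2) F) (m := k + 2) ((autE hf.toModel).symm (lev X₀ 1))
        ((autE hf.toModel).symm (lev Y₀ 1))) :
    T52 (Cfsg.POmega F (Cfsg.quadFormOdd (k + 2) F)) := by
  have h2 : (2 : F) ≠ 0 := by
    intro h0
    have : CharP F 2 := CharTwo.of_one_ne_zero_of_two_eq_zero one_ne_zero h0
    have h3 := (FiniteField.even_card_iff_char_two (F := F)).1 (ringChar.eq F 2)
    rw [Nat.odd_iff] at hodd
    omega
  obtain ⟨ν, hν⟩ : ∃ ν : F, ¬ IsSquare ν := FiniteField.exists_nonsquare (by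
    intro h
    have h3 := (FiniteField.even_card_iff_char_two (F := F)).1 h
    rw [Nat.odd_iff] at hodd
    omega)
  have hν0 : ν ≠ 0 := by rintro rfl; exact hν IsSquare.zero
  refine Cfsg.Agent.H370.TW.t52_odd_inv hodd hk hke ?_
  intro r f B X₀ Y₀ e e' hf hr hr6 hgf hB hBd hBr hX₀ hY₀
  obtain ⟨T, hT⟩ : ∃ T : GL (Fin (k + 2)) F, (T : Matrix (Fin (k + 2)) (Fin (k + 2)) F) = blk ν 1 :=
    ⟨Matrix.GeneralLinearGroup.mkOfDetNeZero (blk ν (1 : Matrix (Fin (k + 1)) (Fin (k + 1)) F))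
      (by rw [blk_det, det_one, mul_one]; exact hν0), rfl⟩
  have hTd : ¬ IsSquare (T : Matrix (Fin (k + 2)) (Fin (k + 2)) F).det := by
    rw [hT, blk_det, det_one, mul_one]
    exact hν
  have hBB : (B : Matrix (Fin (k + 1)) (Fin (k + 1)) F) *
      ((B⁻¹ : GL (Fin (k + 1)) F) : Matrix (Fin (k + 1)) (Fin (k + 1)) F) = 1 := by
    rw [← Units.val_mul, mul_inv_cancel, Units.val_one]
  refine twoOf_of_good h2 (nondeg_oddForm (k + 2) F h2) ?_ (by omega) (hke.add (by decide)) hf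
    (T := T) (T' := T) ?_ ?_ hTd ?_ hTd (H r f B X₀ Y₀ e e' hf hr hr6 hgf hB hBd hBr hX₀ hY₀)
  · rw [Module.finrank_fintype_fun_eq_card]
    simp only [Fintype.card_sum, Fintype.card_unit, Fintype.card_fin]
    ring
  · apply Units.ext
    have e1 : (blk (-1 : F) (-(1 : Matrix (Fin (k + 1)) (Fin (k + 1)) F))) = -blk 1 1 := by
      ext i j
      refine Fin.cases ?_ (fun i' => ?_) i <;> refine Fin.cases ?_ (fun j' => ?_) j <;> simp
    rw [Units.val_mul, hX₀, hY₀, blk_mul, one_mul, mul_neg, hBB, Units.val_neg, Units.val_one, e1, blk_one]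
  · apply Units.ext
    rw [Units.val_mul, Units.val_mul, hX₀, hT, blk_mul, blk_mul, mul_comm, one_mul, one_mul, mul_one]
  · apply Units.ext
    rw [Units.val_mul, Units.val_mul, hY₀, hT, blk_mul, blk_mul, mul_comm, one_mul, mul_one]

end Cfsg.Agent.H455.TW
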