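import Cfsg.Agent.H140.TL.Levi

/-!
# Box E of `Ω_(2n+1)(q)`, `q` odd, `n` even (helper455): minus a reflection

`neg_refl` : an element `-r_z` of `Ω` is a product of a conjugate of `lev X₀ 1` and a conjugate of `lev Y₀ 1`,
where `X₀ * Y₀ = -1`.
-/

set_option autoImplicit false

namespace Cfsg.Agent.H455.TW

open Module QuadraticMap Matrix Cfsg.Agent.LieClassical.OrthCore Cfsg.Agent.LieClassical.OrthTrans
  Cfsg.Agent.H140.OreO Cfsg.Agent.H141.SpinFacts Cfsg.Agent.H140.TL Cfsg.Agent.H160.QSpin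

variable {F V : Type*} [Field F] [AddCommGroup V] [Module F V] {Q : QuadraticForm F V} {n : ℕ}

/-- one orbit of vectors of the same nonzero norm -/
theorem exists_map (h2 : (2 : F) ≠ 0) {x y : V} (hx : Q x ≠ 0) (h : Q x = Q y) : ∃ S ∈ O Q, S x = y := by
  by_cases hv : Q (x - y) = 0
  · have hs : Q (x - (-y)) ≠ 0 := by
      intro h0
      rw [sub_neg_eq_add, Q_add] at h0
      rw [sub_eq_add_neg, Q_add, QuadraticMap.map_neg, polar_neg_right] at hv
      have h4 : (2 * 2) * Q x = 0 := by linear_combination h0 + hv + 2 * h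
      exact mul_ne_zero (mul_ne_zero h2 h2) hx h4
    refine ⟨LinearEquiv.neg F * refl Q (x - (-y)) hs, (O Q).mul_mem neg_mem_O (refl_mem_O hs), ?_⟩
    change -(refl Q (x - (-y)) hs x) = y
    rw [refl_sub_apply (by rw [QuadraticMap.map_neg, h]) hs, neg_neg]
  · exact ⟨refl Q (x - y) hv, refl_mem_O hv, refl_sub_apply h.symm hv⟩

theorem ti_neg_one : ti (-1 : GL (Fin n) F) = -1 := by
  apply Units.ext
  rw [ti_coe, inv_neg, inv_one, Units.val_neg, Units.val_one, transpose_neg, transpose_one]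

/-- `lev (-1) 1` is minus a reflection. -/
theorem exists_v0 [FiniteDimensional F V] (h2 : (2 : F) ≠ 0) (hQ : Nondeg Q) (hdim : finrank F V = 2 * n + 1)
    {e e' : Fin n → V} (hf : Frame Q e e') :
    ∃ v₀ : V, ∃ h₀ : Q v₀ ≠ 0,
      (autE hf.toModel).symm (lev (-1 : GL (Fin n) F) (1 : perp Q e e' ≃ₗ[F] perp Q e e')) =
        LinearEquiv.neg F * refl Q v₀ h₀ := by
  have hp := hf.finrank_perp
  have h1 : finrank F (perp Q e e') = 1 := by omega
  obtain ⟨v₀, hv₀, hs⟩ := finrank_eq_one_iff'.1 h1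
  have hq : Q (v₀ : V) ≠ 0 := by
    intro h0
    apply hv₀
    apply hf.nondeg_res hQ
    intro y
    obtain ⟨c, rfl⟩ := hs y
    rw [polar_smul_right, polar_self', res_apply, h0, mul_zero, smul_zero]
  refine ⟨v₀, hq, ?_⟩
  rw [MulEquiv.symm_apply_eq]
  apply LinearEquiv.ext
  intro x
  rw [autE_apply]
  apply hf.toModel.symm.injective
  rw [LinearEquiv.symm_apply_apply]
  obtain ⟨c, hc⟩ := hs x.2.1
  have e1 : (x.2.1 : V) = c • (v₀ : V) := by rw [← hc]; rfl
  have e2 : polar Q (v₀ : V) (hf.toModel.symm x) = c * (2 * Q (v₀ : V)) := by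
    rw [hf.toModel_symm_apply, polar_add_right, polar_add_right, polar_comm Q _ (∑ i, x.1 i • e i),
      Frame.polar_perp_l _ v₀.2, polar_comm Q _ (∑ i, x.2.2 i • e' i), Frame.polar_perp_r _ v₀.2, e1,
      polar_smul_right, polar_self', smul_eq_mul]
    ring
  have e3 : (LinearEquiv.neg F * refl Q (v₀ : V) hq : V ≃ₗ[F] V) (hf.toModel.symm x) =
      -(hf.toModel.symm x - ((Q (v₀ : V))⁻¹ * polar Q (v₀ : V) (hf.toModel.symm x)) • (v₀ : V)) := by
    rw [← refl_apply hq]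
    rfl
  have e4 : (Q (v₀ : V))⁻¹ * (c * (2 * Q (v₀ : V))) = 2 * c := by field_simp
  rw [e3, e2, e4, hf.toModel_symm_apply, hf.toModel_symm_apply, lev_apply, ti_neg_one]
  simp only [Units.val_neg, Units.val_one, neg_mulVec, one_mulVec, Pi.neg_apply, neg_smul, Finset.sum_neg_distrib]
  have e5 : (((1 : perp Q e e' ≃ₗ[F] perp Q e e') x.2.1 : perp Q e e') : V) = c • (v₀ : V) := e1
  rw [e5, e1]
  module

/-- **Box E.** -/
theorem neg_refl [Finite F] [FiniteDimensional F V] (h2 : (2 : F) ≠ 0) (hQ : Nondeg Q)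
    (hdim : finrank F V = 2 * n + 1) (hn : 1 ≤ n) (hne : Even n) {e e' : Fin n → V} (hf : Frame Q e e')
    {X₀ Y₀ T T' : GL (Fin n) F} (hXY : X₀ * Y₀ = -1)
    (hTX : T * X₀ = X₀ * T) (hT : ¬ IsSquare (T : Matrix (Fin n) (Fin n) F).det)
    (hTY : T' * Y₀ = Y₀ * T') (hT' : ¬ IsSquare (T' : Matrix (Fin n) (Fin n) F).det)
    {g : V ≃ₗ[F] V} (hg : g ∈ Om Q) {z : V} (hz : Q z ≠ 0) (hgz : ∀ v, g v = (polar Q z v / Q z) • z - v) :
    ∃ u ∈ Om Q, ∃ v ∈ Om Q,
      g = (u * (autE hf.toModel).symm (lev X₀ 1) * u⁻¹) * (v * (autE hf.toModel).symm (lev Y₀ 1) * v⁻¹) := by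
  have : Finite V := Module.finite_of_finite F
  have he : ∀ v, MQ n (res Q e e') (hf.toModel v) = Q v := hf.MQ_toModel
  have hp := hf.finrank_perp
  have h1 : finrank F (perp Q e e') = 1 := by omega
  have hodd' : Odd (finrank F (perp Q e e')) := by rw [h1]; exact odd_one
  have hnd := hf.nondeg_res hQ
  obtain ⟨v₀, h₀, hw⟩ := exists_v0 h2 hQ hdim hf
  -- `g = -r_z`
  have hg' : g = LinearEquiv.neg F * refl Q z hz := by
    apply LinearEquiv.ext
    intro v
    rw [hgz]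
    change _ = -(refl Q z hz v)
    rw [refl_apply, neg_sub, div_eq_inv_mul]
  have hN : ∀ h : V ≃ₗ[F] V, LinearEquiv.neg F * h = h * LinearEquiv.neg F := by
    intro h
    apply LinearEquiv.ext
    intro v
    change -(h v) = h (-v)
    rw [map_neg]
  -- `lev (-1) 1 ∈ Ω`
  have hfr := finrank_M (F := F) (V := perp Q e e') (n := n)
  have hMn : Nondeg (MQ n (res Q e e')) := nondeg_MQ hnd
  have : Finite (M F (perp Q e e') n) := inferInstance
  have hwO : lev (-1 : GL (Fin n) F) (1 : perp Q e e' ≃ₗ[F] perp Q e e') ∈ Om (MQ n (res Q e e')) := by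
    refine mem_Om_of_odd' h2 hMn (by rw [hfr, h1]; omega) (lev_mem (O _).one_mem) ?_ ?_
    · rw [det_lev, map_one]
    · have h4 := spin_levGL (n := n) (Q := res Q e e') h2 (-1)
      have h5 : levGL n (res Q e e') (-1) = ⟨lev (-1) 1, lev_mem (O (res Q e e')).one_mem⟩ := rfl
      rw [h5] at h4
      rw [h4, chi_eq_one_iff, Units.val_neg, Units.val_one, det_neg, det_one, mul_one, Fintype.card_fin,
        hne.neg_one_pow]
      exact IsSquare.one
  have hwO' : LinearEquiv.neg F * refl Q v₀ h₀ ∈ Om Q := by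
    rw [← hw, ← autE_mem_Om he, MulEquiv.apply_symm_apply]
    exact hwO
  -- norms
  have hsq : IsSquare (Q z * Q v₀) := by
    apply isSquare_of_refl_mul_refl h2 hz h₀
    have h6 := (Om Q).mul_mem hg ((Om Q).inv_mem hwO')
    have h7 : g * (LinearEquiv.neg F * refl Q v₀ h₀)⁻¹ = refl Q z hz * refl Q v₀ h₀ := by
      rw [hg', _root_.mul_inv_rev, refl_inv, ← mul_assoc, mul_assoc (LinearEquiv.neg F : V ≃ₗ[F] V), hN, mul_assoc,
        mul_inv_cancel, mul_one]
    rw [h7] at h6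
    exact h6
  obtain ⟨c, hc⟩ := hsq
  have hc0 : c ≠ 0 := by
    rintro rfl
    rw [mul_zero] at hc
    exact mul_ne_zero hz h₀ hc
  have hcz : c / Q z ≠ 0 := div_ne_zero hc0 hz
  have hy : Q v₀ = Q ((c / Q z) • z) := by
    rw [QuadraticMap.map_smul, smul_eq_mul, div_mul_div_comm, ← hc]
    field_simp
  obtain ⟨S, hS, hSv⟩ := exists_map h2 h₀ hy
  have hy0 : Q ((c / Q z) • z) ≠ 0 := by rw [← hy]; exact h₀
  have hconj : S * (LinearEquiv.neg F * refl Q v₀ h₀) * S⁻¹ = g := by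
    have h8 : Q (S v₀) ≠ 0 := by rw [hSv]; exact hy0
    have h9 : refl Q (S v₀) h8 = refl Q z hz := by
      rw [← refl_smul hz hcz hy0]
      congr 1
    rw [hg', ← h9, ← refl_conj hS h₀ h8, ← mul_assoc, ← hN S, mul_assoc, mul_assoc, mul_assoc]
  refine back hf hS (g' := LinearEquiv.neg F * refl Q v₀ h₀) (by rw [← hconj]; group)
    (fun S hS => class_model h2 hnd hodd' hn hTX hT (O _).one_mem hS)
    (fun S hS => class_model h2 hnd hodd' hn hTY hT' (O _).one_mem hS) ⟨1, (O _).one_mem, 1, (O _).one_mem, ?_⟩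
  rw [← hw, MulEquiv.apply_symm_apply, ← hXY, one_mul, one_mul, inv_one, mul_one, mul_one, ← lev_mul, one_mul]

end Cfsg.Agent.H455.TW
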