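import Cfsg.Agent.H455.TW.Asm
import Cfsg.Agent.H370.TW.Glue
import Cfsg.Agent.H140.TW.NegInv

/-!
# S2452, `Ω_(2n+1)(q)`, `q` odd, `n` even: the row (helper455)

`t52_odd_even` : `T52 (POmega F (quadFormOdd n F))`, `n = k + 2 ≥ 4` even, `F` of odd order.
-/

set_option autoImplicit false

namespace Cfsg.Agent.H455.TW

open Module QuadraticMap Matrix Polynomial Cfsg.Agent.LieClassical Cfsg.Agent.LieClassical.OrthCore
  Cfsg.Agent.LieClassical.OrthForms Cfsg.Agent.H140.OreO Cfsg.Agent.H962.PP Cfsg.Agent.H781.TC6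
open Cfsg.Agent.H140.TC
open Cfsg.Agent.H588.TW (T52)

/-- **The row `Ω_(2n+1)(q)`, `q` odd, `n` even.** -/
theorem t52_odd_even {F : Type*} [Field F] [Fintype F] (hodd : Odd (Fintype.card F)) {n : ℕ} (hn : 4 ≤ n)
    (hne : Even n) : T52 (Cfsg.POmega F (Cfsg.quadFormOdd n F)) := by
  obtain ⟨k, rfl⟩ := Nat.exists_eq_add_of_le' (show 2 ≤ n by omega)
  have hke : Even k := by
    rw [Nat.even_add] at hne
    exact hne.2 (by decide)
  have h2 : (2 : F) ≠ 0 := by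
    intro h0
    have : CharP F 2 := CharTwo.of_one_ne_zero_of_two_eq_zero one_ne_zero h0
    have h3 := (FiniteField.even_card_iff_char_two (F := F)).1 (ringChar.eq F 2)
    rw [Nat.odd_iff] at hodd
    omega
  refine t52_odd_even_of hodd (by omega) hke ?_
  intro r f B X₀ Y₀ e e' hf hr hr6 hgf hB hBd hBr hX₀ hY₀ g hg w w' hfw hS hdet c hc hc'
  have hd : (-((B⁻¹ : GL (Fin (k + 1)) F) : Matrix (Fin (k + 1)) (Fin (k + 1)) F)).det = -1 := by
    have h1 : ((B⁻¹ : GL (Fin (k + 1)) F) : Matrix (Fin (k + 1)) (Fin (k + 1)) F).det = 1 := by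
      have h4 : ((B⁻¹ : GL (Fin (k + 1)) F) : Matrix (Fin (k + 1)) (Fin (k + 1)) F).det *
          (B : Matrix (Fin (k + 1)) (Fin (k + 1)) F).det = 1 := by
        rw [← det_mul, ← Units.val_mul, inv_mul_cancel, Units.val_one, det_one]
      rwa [hBd, mul_one] at h4
    rw [det_neg, h1, Fintype.card_fin, mul_one]
    exact (hke.add_one).neg_one_pow
  have hRB : RP (k + 1) (B : Matrix (Fin (k + 1)) (Fin (k + 1)) F).charpoly := by
    rw [hB]
    exact ⟨hgf.monic, hgf.irr, hgf.deg, hgf.cop⟩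
  have hRD : RP (k + 1) (-((B⁻¹ : GL (Fin (k + 1)) F) : Matrix (Fin (k + 1)) (Fin (k + 1)) F)).charpoly := by
    refine ⟨Matrix.charpoly_monic _, Cfsg.Agent.H140.TW.irr_neg_inv hRB.irr, ?_,
      Cfsg.Agent.H140.TW.cop_neg_inv hRB.cop⟩
    rw [Matrix.charpoly_natDegree_eq_dim, Fintype.card_fin]
  exact Cfsg.Agent.H370.TW.good_pr h2 (nondeg_oddForm (k + 2) F h2) (by omega) hf hRB hRD
    (by rw [hBd, hd]; norm_num) hX₀ hY₀ (Om_le hg) hfw hS hdet hc hc'

end Cfsg.Agent.H455.TW
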